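import Mathlib
import Cfsg.Agent.CharLead.Basic

/-!
Representations are determined by their characters; Burnside's nonvanishing theorem.
-/

set_option autoImplicit false
set_option linter.all false

open scoped ComplexConjugate
open Representation Module

namespace Cfsg.Agent.CharLead

open Cfsg.Agent.Char

universe u v w

variable {G : Type u} [Group G]

theorem exists_compl_subrep [Finite G] {V : Type v} [AddCommGroup V] [Module ℂ V]
    [FiniteDimensional ℂ V] (ρ : Representation ℂ G V) (W : Subrepresentation ρ) :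
    ∃ W' : Subrepresentation ρ, IsCompl W.toSubmodule W'.toSubmodule := by
  haveI : NeZero (Nat.card G : ℂ) := ⟨by exact_mod_cast Nat.card_pos.ne'⟩
  haveI hc : IsSemisimpleRepresentation ρ := by
    rw [isSemisimpleRepresentation_iff_isSemisimpleModule_asModule]
    infer_instance
  obtain ⟨W', hW'⟩ := exists_isCompl W
  refine ⟨W', disjoint_iff.2 ?_, codisjoint_iff.2 ?_⟩
  · exact congrArg Subrepresentation.toSubmodule hW'.1.eq_bot
  · exact congrArg Subrepresentation.toSubmodule hW'.2.eq_top

theorem exists_irreducible_subrep [Finite G] {V : Type v} [AddCommGroup V] [Module ℂ V]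
    [FiniteDimensional ℂ V] [Nontrivial V] (ρ : Representation ℂ G V) :
    ∃ W : Subrepresentation ρ, W.toRepresentation.IsIrreducible ∧ W.toSubmodule ≠ ⊥ := by
  classical
  have hex : ∃ n : ℕ, ∃ W : Subrepresentation ρ, W.toSubmodule ≠ ⊥ ∧ finrank ℂ W.toSubmodule = n :=
    ⟨_, ⊤, fun h => top_ne_bot (α := Submodule ℂ V) h, rfl⟩
  obtain ⟨W, hW0, hWn⟩ := Nat.find_spec hex
  refine ⟨W, ?_, hW0⟩
  haveI : Nontrivial W.toSubmodule := Submodule.nontrivial_iff_ne_bot.2 hW0
  refine @IsSimpleOrder.mk _ _ _ ⟨⊥, ⊤, fun h => ?_⟩ fun U => ?_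
  · exact bot_ne_top (α := Submodule ℂ W.toSubmodule) (congrArg Subrepresentation.toSubmodule h)
  · by_cases h : U.toSubmodule = ⊥
    · exact Or.inl (Subrepresentation.toSubmodule_injective h)
    right
    apply Subrepresentation.toSubmodule_injective
    show U.toSubmodule = ⊤
    by_contra htop
    let U' : Subrepresentation ρ :=
      { toSubmodule := U.toSubmodule.map W.toSubmodule.subtype
        apply_mem_toSubmodule := by
          intro g v hv
          obtain ⟨x, hx, rfl⟩ := Submodule.mem_map.1 hv
          exact Submodule.mem_map.2 ⟨W.toRepresentation g x, U.apply_mem_toSubmodule g hx, rfl⟩ }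
    have hU' : U'.toSubmodule ≠ ⊥ := fun e =>
      h (Submodule.map_injective_of_injective (Submodule.subtype_injective _)
        (e.trans (Submodule.map_bot _).symm))
    have hlt : finrank ℂ U'.toSubmodule < finrank ℂ W.toSubmodule := by
      rw [show finrank ℂ U'.toSubmodule = finrank ℂ U.toSubmodule from
        Submodule.finrank_map_subtype_eq _ _]
      exact Submodule.finrank_lt htop
    have := Nat.find_min' hex ⟨U', hU', rfl⟩
    omega

noncomputable def equivProdOfIsCompl {V : Type v} [AddCommGroup V] [Module ℂ V]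
    (ρ : Representation ℂ G V) (W W' : Subrepresentation ρ)
    (h : IsCompl W.toSubmodule W'.toSubmodule) :
    Representation.Equiv (W.toRepresentation.prod W'.toRepresentation) ρ :=
  Representation.Equiv.mk (Submodule.prodEquivOfIsCompl W.toSubmodule W'.toSubmodule h) fun g =>
    LinearMap.ext fun x => by
      show Submodule.prodEquivOfIsCompl _ _ h (W.toRepresentation g x.1, W'.toRepresentation g x.2)
        = ρ g (Submodule.prodEquivOfIsCompl _ _ h x)
      simp [Subrepresentation.toRepresentation]

theorem equiv_of_character_eq [Finite G] {V : Type v} [AddCommGroup V] [Module ℂ V]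
    [FiniteDimensional ℂ V] {W : Type w} [AddCommGroup W] [Module ℂ W] [FiniteDimensional ℂ W]
    (ρ : Representation ℂ G V) (σ : Representation ℂ G W) (h : ρ.character = σ.character) :
    Nonempty (ρ.Equiv σ) := by
  suffices H : ∀ n : ℕ, ∀ (V : Type v) [AddCommGroup V] [Module ℂ V] [FiniteDimensional ℂ V]
      (W : Type w) [AddCommGroup W] [Module ℂ W] [FiniteDimensional ℂ W]
      (ρ : Representation ℂ G V) (σ : Representation ℂ G W), finrank ℂ V = n →
      ρ.character = σ.character → Nonempty (ρ.Equiv σ) from H _ V W ρ σ rfl h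
  clear h
  intro n
  induction n using Nat.strong_induction_on with
  | _ n ih =>
    intro V _ _ _ W _ _ _ ρ σ hn hch
    haveI := Fintype.ofFinite G
    have hdim : finrank ℂ V = finrank ℂ W := by
      have := congrFun hch 1
      rw [Representation.char_one, Representation.char_one] at this
      exact_mod_cast this
    rcases subsingleton_or_nontrivial V with hV | hV
    · haveI : Subsingleton W := by
        rw [← Module.finrank_zero_iff (R := ℂ), ← hdim]
        exact Module.finrank_zero_of_subsingleton
      exact ⟨Representation.Equiv.mk (LinearEquiv.ofSubsingleton V W) fun g =>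
        Subsingleton.elim _ _⟩
    obtain ⟨A, hA, hA0⟩ := exists_irreducible_subrep ρ
    obtain ⟨A', hA'⟩ := exists_compl_subrep ρ A
    have hchρ := char_of_isCompl ρ A A' hA'
    -- a nonzero intertwining map from the irreducible constituent
    have hne : Cfsg.classInner σ.character A.toRepresentation.character ≠ 0 := by
      rw [← hch, hchρ, classInner_add_left]
      have h1 : Cfsg.classInner A.toRepresentation.character A.toRepresentation.character = 1 :=
        classInner_irr_self ⟨_, isIrrCharacter_of_rep A.toRepresentation⟩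
      rw [h1, classInner_char_eq_finrank]
      rw [← Nat.cast_one, ← Nat.cast_add, Nat.cast_ne_zero]
      omega
    rw [classInner_char_eq_finrank, Nat.cast_ne_zero] at hne
    haveI : Nontrivial (IntertwiningMap A.toRepresentation σ) :=
      Module.finrank_pos_iff.1 (Nat.pos_of_ne_zero hne)
    obtain ⟨f, hf⟩ := exists_ne (0 : IntertwiningMap A.toRepresentation σ)
    have hker : Function.Injective f.toLinearMap := by
      rw [← LinearMap.ker_eq_bot]
      let K : Subrepresentation A.toRepresentation :=
        { toSubmodule := LinearMap.ker f.toLinearMap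
          apply_mem_toSubmodule := by
            intro g v hv
            rw [LinearMap.mem_ker] at hv ⊢
            have := LinearMap.congr_fun (f.isIntertwining' g) v
            simp only [LinearMap.comp_apply] at this
            rw [this, hv, map_zero] }
      rcases hA.eq_bot_or_eq_top K with hK | hK
      · exact congrArg Subrepresentation.toSubmodule hK
      · exfalso
        apply hf
        apply IntertwiningMap.toLinearMap_injective
        exact LinearMap.ker_eq_top.1 (congrArg Subrepresentation.toSubmodule hK)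
    let B : Subrepresentation σ :=
      { toSubmodule := LinearMap.range f.toLinearMap
        apply_mem_toSubmodule := by
          intro g v hv
          obtain ⟨x, rfl⟩ := LinearMap.mem_range.1 hv
          exact LinearMap.mem_range.2 ⟨A.toRepresentation g x,
            LinearMap.congr_fun (f.isIntertwining' g) x⟩ }
    obtain ⟨B', hB'⟩ := exists_compl_subrep σ B
    let eAB : A.toRepresentation.Equiv B.toRepresentation :=
      Representation.Equiv.mk (LinearEquiv.ofInjective f.toLinearMap hker) fun g =>
        LinearMap.ext fun x => Subtype.ext (LinearMap.congr_fun (f.isIntertwining' g) x)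
    have hch' : A'.toRepresentation.character = B'.toRepresentation.character := by
      have hchσ := char_of_isCompl σ B B' hB'
      rw [hchρ, hchσ, Representation.char_iso eAB] at hch
      exact add_left_cancel hch
    have hlt : finrank ℂ A'.toSubmodule < n := by
      rw [← hn]
      apply Submodule.finrank_lt
      intro htop
      apply hA0
      have := hA'.1.eq_bot
      rwa [htop, inf_top_eq] at this
    obtain ⟨e'⟩ := ih _ hlt _ _ A'.toRepresentation B'.toRepresentation rfl hch'
    let eP : (A.toRepresentation.prod A'.toRepresentation).Equiv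
        (B.toRepresentation.prod B'.toRepresentation) :=
      Representation.Equiv.mk (eAB.toLinearEquiv.prodCongr e'.toLinearEquiv) fun g =>
        LinearMap.ext fun x => Prod.ext (LinearMap.congr_fun (eAB.toIntertwiningMap.isIntertwining' g) x.1)
          (LinearMap.congr_fun (e'.toIntertwiningMap.isIntertwining' g) x.2)
    exact ⟨((equivProdOfIsCompl ρ A A' hA').symm.trans eP).trans (equivProdOfIsCompl σ B B' hB')⟩

open IntermediateField in
theorem exists_char_eq_zero [Finite G] {V : Type v} [AddCommGroup V] [Module ℂ V]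
    [FiniteDimensional ℂ V] (ρ : Representation ℂ G V) [ρ.IsIrreducible]
    (hdeg : 1 < finrank ℂ V) : ∃ g : G, ρ.character g = 0 := by
  classical
  haveI := Fintype.ofFinite G
  by_contra hne
  push Not at hne
  set χ : G → ℂ := ρ.character with hχdef
  set N := Nat.card G
  have hN : 0 < N := Nat.card_pos
  set P : ℂ := ∏ g : G, χ g * conj (χ g) with hPdef
  have hint : ∀ g, IsIntegral ℤ (χ g) := isIntegral_char ρ
  have hconj : ∀ g, conj (χ g) = χ g⁻¹ := fun g => (char_inv ρ g).symm
  have hPint : IsIntegral ℤ P :=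
    IsIntegral.prod _ fun g _ => (hint g).mul (by rw [hconj]; exact hint _)
  -- P is fixed by all field automorphisms
  let K := algebraicClosure ℚ ℂ
  have hK : ∀ g, χ g ∈ K := fun g =>
    mem_algebraicClosure_iff'.2 ((hint g).tower_top)
  obtain ⟨ζ, hζ⟩ : ∃ ζ : ℂ, IsPrimitiveRoot ζ N :=
    ⟨_, Complex.isPrimitiveRoot_exp N hN.ne'⟩
  have hrootK : ∀ z : ℂ, z ^ N = 1 → z ∈ K := fun z hz =>
    mem_algebraicClosure_iff'.2 (IsIntegral.of_pow hN (by rw [hz]; exact isIntegral_one))
  have hζK : ζ ∈ K := hrootK ζ hζ.pow_eq_one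
  have hperm : ∀ σ : K →ₐ[ℚ] ℂ, ∃ k : ℕ, k.Coprime N ∧
      ∀ g, σ ⟨χ g, hK g⟩ = χ (g ^ k) := by
    intro σ
    have hσζ : IsPrimitiveRoot (σ ⟨ζ, hζK⟩) N := by
      have : IsPrimitiveRoot (⟨ζ, hζK⟩ : K) N :=
        IsPrimitiveRoot.of_map_of_injective (f := K.val) hζ K.val.injective
      exact this.map_of_injective (RingHom.injective σ.toRingHom)
    haveI : NeZero N := ⟨hN.ne'⟩
    obtain ⟨k, -, hkcop, hk⟩ := (hζ.isPrimitiveRoot_iff).1 hσζ
    refine ⟨k, hkcop, fun g => ?_⟩
    obtain ⟨b, ω, hb, hω⟩ := exists_eigenbasis ρ g (isOfFinOrder_of_finite g)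
    have hωN : ∀ i, ω i ^ N = 1 := fun i => by
      obtain ⟨m, hm⟩ := orderOf_dvd_natCard g
      rw [show N = orderOf g * m from hm, pow_mul, hω i, one_pow]
    have hg : χ g = ∑ i, ω i := trace_of_eigenbasis _ b ω hb
    have hgk : χ (g ^ k) = ∑ i, ω i ^ k := by
      show LinearMap.trace ℂ V (ρ (g ^ k)) = _
      rw [map_pow]
      have hpow : ∀ (m : ℕ) i, (ρ g ^ m) (b i) = ω i ^ m • b i := by
        intro m i
        induction m with
        | zero => simp
        | succ m ih => rw [pow_succ', Module.End.mul_apply, ih, map_smul, hb, smul_smul, ← pow_succ]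
      exact trace_of_eigenbasis _ b _ fun i => hpow k i
    have hsum : (⟨χ g, hK g⟩ : K) = ∑ i, (⟨ω i, hrootK _ (hωN i)⟩ : K) :=
      Subtype.ext (by push_cast; exact hg)
    rw [hgk, hsum, map_sum]
    refine Finset.sum_congr rfl fun i _ => ?_
    obtain ⟨j, -, hj⟩ := hζ.eq_pow_of_pow_eq_one (hωN i)
    have : (⟨ω i, hrootK _ (hωN i)⟩ : K) = ⟨ζ, hζK⟩ ^ j := Subtype.ext (by push_cast; exact hj.symm)
    rw [this, map_pow, ← hk, ← hj, ← pow_mul, ← pow_mul, mul_comm]
  have hPK : P ∈ K := mem_algebraicClosure_iff'.2 hPint.tower_top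
  have hfix : ∀ σ : K →ₐ[ℚ] ℂ, σ ⟨P, hPK⟩ = P := by
    intro σ
    obtain ⟨k, hk, hσ⟩ := hperm σ
    have : (⟨P, hPK⟩ : K) = ∏ g : G, (⟨χ g, hK g⟩ : K) * ⟨χ g⁻¹, hK g⁻¹⟩ := by
      apply Subtype.ext
      push_cast
      simp only [hPdef, hconj]
    rw [this, map_prod]
    simp only [map_mul, hσ, hPdef, hconj, inv_pow]
    exact Fintype.prod_equiv (powCoprime (G := G) hk.symm) _ _ fun g => rfl
  have hQ : IsIntegral ℚ P := hPint.tower_top
  have hroots : ∀ β ∈ (minpoly ℚ P).aroots ℂ, β = P := by
    intro β hβ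
    rw [Polynomial.mem_aroots] at hβ
    obtain ⟨σ, hσ⟩ := IntermediateField.exists_algHom_of_splits_of_aeval (E := K) (F := ℚ) (K := ℂ)
      (x := (⟨P, hPK⟩ : K)) (y := β)
      (fun x => ⟨IntermediateField.isIntegral_iff.2 (mem_algebraicClosure_iff'.1 x.2), IsAlgClosed.splits _⟩)
      (by rw [IntermediateField.minpoly_eq]; exact hβ.2)
    exact hσ.symm.trans (hfix σ)
  have hrat : ∃ q : ℚ, (q : ℂ) = P := by
    have hsep : (minpoly ℚ P).Separable := (minpoly.irreducible hQ).separable
    have hnd : ((minpoly ℚ P).aroots ℂ).Nodup := Polynomial.nodup_roots hsep.map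
    have hcard : ((minpoly ℚ P).aroots ℂ).card = (minpoly ℚ P).natDegree :=
      IsAlgClosed.card_aroots_eq_natDegree
    have hle : ((minpoly ℚ P).aroots ℂ).card ≤ 1 := by
      rw [← Multiset.toFinset_card_of_nodup hnd]
      exact Finset.card_le_one.2 fun a ha b hb => by
        rw [hroots a (Multiset.mem_toFinset.1 ha), hroots b (Multiset.mem_toFinset.1 hb)]
    have hdeg1 : (minpoly ℚ P).natDegree = 1 := by
      have := minpoly.natDegree_pos hQ
      omega
    have hmem := minpoly.natDegree_eq_one_iff.1 hdeg1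
    exact ⟨hmem.choose, hmem.choose_spec⟩
  obtain ⟨q, hq⟩ := hrat
  obtain ⟨m, hm⟩ := exists_int_of_isIntegral (q := q) (hq ▸ hPint)
  have hPnorm : P = ((∏ g : G, ‖χ g‖ ^ 2 : ℝ) : ℂ) := by
    push_cast
    rw [hPdef]
    exact Finset.prod_congr rfl fun g _ => Complex.mul_conj' _
  have hge : (1 : ℝ) ≤ ∏ g : G, ‖χ g‖ ^ 2 := by
    have h1 : ((m : ℝ) : ℂ) = ((∏ g : G, ‖χ g‖ ^ 2 : ℝ) : ℂ) := by
      rw [← hPnorm, ← hq, hm]
      push_cast
      rfl
    have h2 := Complex.ofReal_injective h1
    have hpos : 0 < ∏ g : G, ‖χ g‖ ^ 2 :=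
      Finset.prod_pos fun g _ => pow_pos (norm_pos_iff.2 (hne g)) 2
    rw [← h2] at hpos ⊢
    have : (0 : ℤ) < m := by exact_mod_cast hpos
    exact_mod_cast this
  -- AM-GM
  have hsumsq : ∑ g : G, ‖χ g‖ ^ 2 = (N : ℝ) := by
    have h := classInner_irr_self (⟨χ, isIrrCharacter_of_rep ρ⟩ : Cfsg.IrrCharacter G)
    simp only [Cfsg.classInner] at h
    rw [inv_mul_eq_iff_eq_mul₀ (by exact_mod_cast hN.ne'), mul_one] at h
    apply Complex.ofReal_injective
    push_cast
    rw [← h]
    exact Finset.sum_congr rfl fun a _ => (Complex.mul_conj' _).symm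
  set a : G → ℝ := fun g => ‖χ g‖ ^ 2
  have hapos : ∀ g, 0 < a g := fun g => pow_pos (norm_pos_iff.2 (hne g)) 2
  have hlog : ∑ g : G, Real.log (a g) < ∑ g : G, (a g - 1) := by
    refine Finset.sum_lt_sum (fun g _ => Real.log_le_sub_one_of_pos (hapos g))
      ⟨1, Finset.mem_univ _, Real.log_lt_sub_one_of_pos (hapos 1) ?_⟩
    have h1 : χ 1 = (finrank ℂ V : ℂ) := ρ.char_one
    show ‖χ 1‖ ^ 2 ≠ 1
    rw [h1, Complex.norm_natCast]
    have : (2 : ℝ) ≤ (finrank ℂ V : ℝ) := by exact_mod_cast hdeg
    intro h
    nlinarith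
  rw [Finset.sum_sub_distrib, hsumsq, ← Real.log_prod (fun g _ => (hapos g).ne')] at hlog
  simp [N, Nat.card_eq_fintype_card] at hlog
  have := Real.log_nonneg hge
  linarith

end Cfsg.Agent.CharLead
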