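import Mathlib
import Cfsg.Agent.Char.Irr

/-!
Kernels of characters and the degree sum over a quotient.
-/

set_option autoImplicit false
set_option linter.all false

open scoped ComplexConjugate
open Representation Module

namespace Cfsg.Agent.CharLead

open Cfsg.Agent.Char

universe u v

variable {G : Type u} [Group G]

theorem rep_eq_one_iff_char [Finite G] {V : Type v} [AddCommGroup V] [Module ℂ V]
    [FiniteDimensional ℂ V] (ρ : Representation ℂ G V) (g : G) :
    ρ.character g = ρ.character 1 ↔ ρ g = 1 := by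
  constructor
  · intro h
    have h1 : ‖ρ.character g‖ = (finrank ℂ V : ℝ) := by rw [h, ρ.char_one]; simp
    obtain ⟨c, hc⟩ := (norm_char_eq_iff ρ g).1 h1
    rcases Nat.eq_zero_or_pos (finrank ℂ V) with h0 | h0
    · haveI : Subsingleton V := Module.finrank_zero_iff.1 h0
      exact Subsingleton.elim _ _
    · rw [ρ.char_one, Representation.character, hc, map_smul, LinearMap.trace_id, smul_eq_mul] at h
      have : c = 1 := mul_left_eq_self₀.1 h |>.resolve_right (by exact_mod_cast h0.ne')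
      rw [hc, this, one_smul]
      rfl
  · intro h
    simp [Representation.character, h]

theorem exists_charKer [Finite G] {χ : G → ℂ} (hχ : Cfsg.IsCharacter G χ) :
    ∃ N : Subgroup G, N.Normal ∧ ∀ g, g ∈ N ↔ χ g = χ 1 := by
  obtain ⟨n, ρ, rfl⟩ := hχ
  refine ⟨MonoidHom.ker ρ, inferInstance, fun g => ?_⟩
  rw [rep_eq_one_iff_char]
  rfl

/-- The kernel of an irreducible character. -/
noncomputable def irrKer [Finite G] (χ : Cfsg.IrrCharacter G) : Subgroup G :=
  (exists_charKer (isCharacter_of_isIrrCharacter χ.2)).choose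

theorem mem_irrKer [Finite G] (χ : Cfsg.IrrCharacter G) (g : G) :
    g ∈ irrKer χ ↔ (χ : G → ℂ) g = (χ : G → ℂ) 1 :=
  (exists_charKer (isCharacter_of_isIrrCharacter χ.2)).choose_spec.2 g

theorem irrKer_normal [Finite G] (χ : Cfsg.IrrCharacter G) : (irrKer χ).Normal :=
  (exists_charKer (isCharacter_of_isIrrCharacter χ.2)).choose_spec.1

theorem eq_one_of_forall_mem_irrKer [Finite G] (g : G)
    (h : ∀ χ : Cfsg.IrrCharacter G, g ∈ irrKer χ) : g = 1 :=
  isConj_one_left.1 (isConj_of_forall_irr_eq fun χ => (mem_irrKer χ g).1 (h χ))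

theorem isIrrCharacter_descend [Finite G] (K : Subgroup G) [K.Normal] {χ : G → ℂ}
    (hχ : Cfsg.IsIrrCharacter G χ) (hK : ∀ g ∈ K, χ g = χ 1) :
    ∃ ψ : G ⧸ K → ℂ, Cfsg.IsIrrCharacter (G ⧸ K) ψ ∧ ∀ g, χ g = ψ (QuotientGroup.mk' K g) := by
  obtain ⟨n, ρ, hρ, rfl⟩ := hχ
  have hle : K ≤ MonoidHom.ker ρ := fun g hg => (rep_eq_one_iff_char ρ g).1 (hK g hg)
  let σ : Representation ℂ (G ⧸ K) (Fin n → ℂ) := QuotientGroup.lift K ρ hle
  refine ⟨σ.character, ⟨n, σ, ?_, rfl⟩, fun g => rfl⟩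
  have e : Subrepresentation σ ≃o Subrepresentation ρ :=
    { toFun := fun W => ⟨W.toSubmodule, fun g v hv =>
        W.apply_mem_toSubmodule (QuotientGroup.mk' K g) hv⟩
      invFun := fun W => ⟨W.toSubmodule, fun q v hv => by
        obtain ⟨g, rfl⟩ := QuotientGroup.mk'_surjective K q
        exact W.apply_mem_toSubmodule g hv⟩
      left_inv := fun W => rfl
      right_inv := fun W => rfl
      map_rel_iff' := Iff.rfl }
  exact (OrderIso.isSimpleOrder_iff e).2 hρ

/-- The squares of the degrees of the irreducible characters trivial on `K` sum to `|G : K|`. -/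
theorem sum_sq_quotient [Finite G] (K : Subgroup G) [K.Normal]
    [DecidablePred fun χ : Cfsg.IrrCharacter G => K ≤ irrKer χ] :
    ∑ χ ∈ Finset.univ.filter (fun χ : Cfsg.IrrCharacter G => K ≤ irrKer χ), (χ : G → ℂ) 1 ^ 2
      = (K.index : ℂ) := by
  rw [Subgroup.index_eq_card, ← sum_irr_sq (G := G ⧸ K)]
  symm
  let f : Cfsg.IrrCharacter (G ⧸ K) → Cfsg.IrrCharacter G := fun ψ =>
    ⟨fun g => (ψ : G ⧸ K → ℂ) (QuotientGroup.mk' K g),
      isIrrCharacter_comp_of_surjective ψ.2 _ (QuotientGroup.mk'_surjective K)⟩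
  refine Finset.sum_bij (fun ψ _ => f ψ) ?_ ?_ ?_ ?_
  · intro ψ _
    rw [Finset.mem_filter_univ]
    intro g hg
    rw [mem_irrKer]
    show (ψ : G ⧸ K → ℂ) (QuotientGroup.mk' K g) = (ψ : G ⧸ K → ℂ) (QuotientGroup.mk' K 1)
    rw [map_one, show QuotientGroup.mk' K g = 1 from (QuotientGroup.eq_one_iff g).2 hg]
  · intro a _ b _ h
    apply Subtype.ext
    funext q
    obtain ⟨g, rfl⟩ := QuotientGroup.mk'_surjective K q
    exact congrFun (congrArg Subtype.val h) g
  · intro χ hχ
    rw [Finset.mem_filter_univ] at hχ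
    obtain ⟨ψ, hψ, he⟩ := isIrrCharacter_descend K χ.2 fun g hg => (mem_irrKer χ g).1 (hχ hg)
    exact ⟨⟨ψ, hψ⟩, Finset.mem_univ _, Subtype.ext (funext fun g => (he g).symm)⟩
  · intro ψ _
    show _ = (ψ : G ⧸ K → ℂ) (QuotientGroup.mk' K 1) ^ 2
    rw [map_one]

end Cfsg.Agent.CharLead
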